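import Cfsg.Agent.H793.RelCrit
import Cfsg.Agent.H793.Hyp
import Cfsg.Agent.H794.FusTop
import Cfsg.Agent.H802.FusAlp
set_option linter.all false

/-!
# Fusion of small cyclic subgroups of the hyperfocal subgroup (helper793)
-/

set_option autoImplicit false

namespace Cfsg.Agent.H793

open Cfsg Cfsg.FusionSystem Cfsg.Agent.H802
open scoped commutatorElement

variable {Ω : Type*} [Group Ω] {S : Subgroup Ω}

/-- The upper central series of `S`, as subgroups of the ambient group. -/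
def ucs (S : Subgroup Ω) (i : ℕ) : Subgroup Ω := (Subgroup.upperCentralSeries ↥S i).map S.subtype

theorem ucs_le (S : Subgroup Ω) (i : ℕ) : ucs S i ≤ S := by
  rintro _ ⟨x, -, rfl⟩
  exact x.2

theorem mem_ucs_zero {x : Ω} (h : x ∈ ucs S 0) : x = 1 := by
  obtain ⟨y, hy, rfl⟩ := h
  have : y = 1 := by simpa using hy
  rw [this]; rfl

theorem ucs_comm {i : ℕ} {x s : Ω} (hx : x ∈ ucs S (i + 1)) (hs : s ∈ S) :
    x⁻¹ * (s * x * s⁻¹) ∈ ucs S i := by
  obtain ⟨y, hy, rfl⟩ := hx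
  have h1 := (Subgroup.mem_upperCentralSeries_succ_iff).1 ((Subgroup.upperCentralSeries ↥S (i + 1)).inv_mem hy) ⟨s, hs⟩
  refine ⟨_, h1, ?_⟩
  show S.subtype ⁅y⁻¹, (⟨s, hs⟩ : S)⁆ = (S.subtype y)⁻¹ * (s * S.subtype y * s⁻¹)
  rw [map_commutatorElement, map_inv, commutatorElement_def, inv_inv]
  simp [mul_assoc]

theorem exists_ucs_top [Finite S] {p : ℕ} [Fact p.Prime] (hS : IsPGroup p S) : ∃ n, ucs S n = S := by
  have hnil : Group.IsNilpotent S := hS.isNilpotent
  obtain ⟨n, hn⟩ := hnil.nilpotent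
  refine ⟨n, ?_⟩
  rw [ucs, hn]
  ext x
  simp

/-- A map of a fusion system defined on `S` preserves the upper central series. -/
theorem apply_mem_ucs [Finite S] {F : FusionSystem S} {ψ : S →* Ω} (hψ : ψ ∈ F.Hom S) (i : ℕ)
    {x : Ω} (hx : x ∈ ucs S i) : ψ ⟨x, ucs_le S i hx⟩ ∈ ucs S i := by
  have hr : ψ.range = S := range_eq_of_mapsTo hψ (fun x => hom_apply_mem hψ x)
  obtain ⟨α, -, hα⟩ := exists_aut hψ hr
  obtain ⟨y, hy, rfl⟩ := hx
  have hc : (Subgroup.upperCentralSeries ↥S i).Characteristic := inferInstance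
  have h1 : α y ∈ Subgroup.upperCentralSeries ↥S i := by
    have := Subgroup.characteristic_iff_map_eq.1 hc α
    rw [← this]
    exact ⟨y, hy, rfl⟩
  exact ⟨α y, h1, hα y⟩

/-- The data attached to a subgroup `Q` of `S`: a relative critical subgroup of `Q ∩ hyp(F)` for `Aut_F(Q)`. -/
theorem exists_D [Finite S] {p : ℕ} [Fact p.Prime] (hS : IsPGroup p S) {F : FusionSystem S}
    (hF : F.IsSaturated p) {Q : Subgroup Ω} (hQ : Q ≤ S) :
    ∃ D : Subgroup Q, (∀ x ∈ D, (x : Ω) ∈ F.hyperfocalSubgroup p) ∧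
      (∀ g ∈ F.autGroup Q, ∀ x ∈ D, g x ∈ D) ∧ (∀ x ∈ D, x ^ sexp p = 1) ∧
      (∀ b ∈ F.autGroup Q, (orderOf b).Coprime p → (∀ x ∈ D, b x = x) → b = 1) := by
  have hfin : Finite Q := finite_of_le hQ
  have hG : ∀ q : Q, MulAut.conj q ∈ F.autGroup Q := by
    intro q
    rw [mem_autGroup_iff F hQ]
    exact mem_of_apply_eq (F.conj_mem hQ (hQ q.2)) (fun x => rfl)
  have hT : ∀ g ∈ F.autGroup Q, ∀ x ∈ (F.hyperfocalSubgroup p).subgroupOf Q,
      g x ∈ (F.hyperfocalSubgroup p).subgroupOf Q := by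
    intro g hg x hx
    exact (apply_mem_hyp_iff hS hF Q _ ((mem_autGroup_iff F hQ g).1 hg) x).1 hx
  obtain ⟨D, h1, h2, h3, -, h5⟩ := exists_relCrit (hS.to_le hQ) (F.autGroup Q) hG
    ((F.hyperfocalSubgroup p).subgroupOf Q) hT
  refine ⟨D, fun x hx => h1 hx, h2, h3, fun b hb ho hbD => h5 b hb ho (fun x => ?_) hbD⟩
  exact mem_hyp_of_coprime hQ hb ho x

/-- `p'`-automorphisms stabilizing the chain of the intersections with the upper central series are trivial. -/
theorem eq_one_of_chain [Finite S] {p : ℕ} [Fact p.Prime] (hS : IsPGroup p S)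
    {Q : Subgroup Ω} (hQ : Q ≤ S) {D : Subgroup Q} {b : MulAut Q} (ho : (orderOf b).Coprime p)
    (hbD : ∀ x ∈ D, b x ∈ D)
    (h : ∀ i : ℕ, ∀ x ∈ D, (x : Ω) ∈ ucs S (i + 1) → (x : Ω)⁻¹ * ((b x : Q) : Ω) ∈ ucs S i) :
    ∀ x ∈ D, b x = x := by
  have hfin : Finite Q := finite_of_le hQ
  have key : ∀ i : ℕ, ∀ x ∈ D, (x : Ω) ∈ ucs S i → b x = x := by
    intro i
    induction i with
    | zero =>
      intro x _ hx
      have : x = 1 := Subtype.ext (mem_ucs_zero hx)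
      rw [this, map_one]
    | succ i ih =>
      intro x hxD hx
      refine Cfsg.Agent.H794.fix_of_fix_div (hS.to_le hQ) b ho x (ih _ ?_ ?_)
      · exact D.mul_mem (D.inv_mem hxD) (hbD x hxD)
      · exact h i x hxD hx
  obtain ⟨n, hn⟩ := exists_ucs_top hS
  intro x hx
  refine key n x hx ?_
  rw [hn]
  exact hQ x.2

/-- Small elements of order conditions. -/
theorem card_zpowers_of_small {p : ℕ} [hp : Fact p.Prime] {x : Ω} (hx : x ^ sexp p = 1)
    (hx1 : x ≠ 1) : Nat.card (Subgroup.zpowers x) = p ∨ Nat.card (Subgroup.zpowers x) = 4 := by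
  rw [Nat.card_zpowers]
  rcases small_of_sexp hx with h | ⟨h2, h⟩
  · exact Or.inl (orderOf_eq_prime h hx1)
  · subst h2
    have h3 : orderOf x ∣ 2 ^ 2 := orderOf_dvd_of_pow_eq_one h
    obtain ⟨k, hk, hk'⟩ := (Nat.dvd_prime_pow Nat.prime_two).1 h3
    interval_cases k
    · rw [pow_zero, orderOf_eq_one_iff] at hk'
      exact absurd hk' hx1
    · exact Or.inl hk'
    · exact Or.inr hk'

/-- Restriction to a cyclic subgroup, as an element of a hom set. -/
theorem exists_homSet_cyclic {F : FusionSystem S} {Q : Subgroup Ω} {φ : Q →* Ω} (hφ : φ ∈ F.Hom Q)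
    (x : Q) : ∃ χ ∈ F.homSet (Subgroup.zpowers (x : Ω)) (Subgroup.zpowers (φ x)),
      χ ⟨x, Subgroup.mem_zpowers _⟩ = φ x := by
  have hle : Subgroup.zpowers (x : Ω) ≤ Q := Subgroup.zpowers_le.2 x.2
  refine ⟨φ.comp (Subgroup.inclusion hle), ⟨restrict_mem hφ hle, ?_⟩, rfl⟩
  rintro ⟨y, k, rfl⟩
  refine ⟨k, ?_⟩
  show φ x ^ k = φ _
  rw [← map_zpow]
  rfl

/-- If maps between small cyclic subgroups of the hyperfocal subgroup extend to `S`, then `Aut_F(Q)` is `p`-closed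
for all fully automized `Q`. -/
theorem p_closed_of_extends [Finite S] {p : ℕ} [hp : Fact p.Prime] (hS : IsPGroup p S)
    {F : FusionSystem S} (hF : F.IsSaturated p)
    (hsm : ∀ (Q : Subgroup Ω) (φ : Q →* Ω), φ ∈ F.Hom Q → ∀ x : Q,
      (x : Ω) ∈ F.hyperfocalSubgroup p → (x : Ω) ^ sexp p = 1 → ∀ i, (x : Ω) ∈ ucs S i →
        φ x ∈ ucs S i)
    {Q : Subgroup Ω} (hQa : F.IsFullyAutomized p Q) :
    ∃ R : Sylow p ↥(F.autGroup Q), (R : Subgroup ↥(F.autGroup Q)).Normal := by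
  obtain ⟨hQS, R, hR⟩ := hQa
  have hfQ : Finite Q := finite_of_le hQS
  obtain ⟨D, hDh, hDG, hDe, hDb⟩ := exists_D hS hF hQS
  have hpres : ∀ g : F.autGroup Q, ∀ x ∈ D, ∀ i, (x : Ω) ∈ ucs S i →
      ((((g : MulAut Q) x : Q)) : Ω) ∈ ucs S i := by
    intro g x hx i hi
    refine hsm Q _ ((mem_autGroup_iff F hQS g).1 g.2) x (hDh x hx) ?_ i hi
    have := congrArg Subtype.val (hDe x hx)
    exact this
  -- the stabilizer of the chain
  let C : Subgroup (F.autGroup Q) :=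
    { carrier := {a | ∀ i : ℕ, ∀ x ∈ D, (x : Ω) ∈ ucs S (i + 1) →
        (x : Ω)⁻¹ * (((a : MulAut Q) x : Q) : Ω) ∈ ucs S i}
      one_mem' := by
        intro i x _ _
        show (x : Ω)⁻¹ * (x : Ω) ∈ ucs S i
        rw [inv_mul_cancel]; exact Subgroup.one_mem _
      mul_mem' := by
        intro a b ha hb i x hxD hx
        have h1 := ha i _ (hDG _ b.2 x hxD) (hpres b x hxD _ hx)
        have h2 := hb i x hxD hx
        have h3 := Subgroup.mul_mem _ h2 h1
        have h4 : (x : Ω)⁻¹ * (((b : MulAut Q) x : Q) : Ω) * ((((b : MulAut Q) x : Q) : Ω)⁻¹ *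
            (((a : MulAut Q) ((b : MulAut Q) x) : Q) : Ω)) =
            (x : Ω)⁻¹ * (((a : MulAut Q) ((b : MulAut Q) x) : Q) : Ω) := by group
        rw [h4] at h3
        exact h3
      inv_mem' := by
        intro a ha i x hxD hx
        have hy := hDG _ (F.autGroup Q |>.inv_mem a.2) x hxD
        have hy2 : (((a : MulAut Q)⁻¹ x : Q) : Ω) ∈ ucs S (i + 1) := hpres a⁻¹ x hxD _ hx
        have h1 := ha i _ hy hy2
        rw [MulAut.apply_inv_self] at h1
        have h2 := Subgroup.inv_mem _ h1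
        rw [mul_inv_rev, inv_inv] at h2
        exact h2 }
  have hC : ∀ a, a ∈ C ↔ ∀ i : ℕ, ∀ x ∈ D, (x : Ω) ∈ ucs S (i + 1) →
        (x : Ω)⁻¹ * (((a : MulAut Q) x : Q) : Ω) ∈ ucs S i := fun a => Iff.rfl
  have hCn : C.Normal := by
    refine ⟨fun a ha g => (hC _).2 fun i x hxD hx => ?_⟩
    have hy := hDG _ (F.autGroup Q |>.inv_mem g.2) x hxD
    have hy2 : (((g : MulAut Q)⁻¹ x : Q) : Ω) ∈ ucs S (i + 1) := hpres g⁻¹ x hxD _ hx
    have h1 := (hC a).1 ha i _ hy hy2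
    have h2 : ((g : MulAut Q)⁻¹ x)⁻¹ * (a : MulAut Q) ((g : MulAut Q)⁻¹ x) ∈ D :=
      D.mul_mem (D.inv_mem hy) (hDG _ a.2 _ hy)
    have h3 := hpres g _ h2 i h1
    rw [map_mul, map_inv, MulAut.apply_inv_self] at h3
    exact h3
  have hCp : IsPGroup p C := by
    rw [IsPGroup.iff_card]
    by_contra hcon
    have hCpos : Nat.card C ≠ 0 := Nat.card_pos.ne'
    obtain ⟨q, hq, hqd, hqp⟩ : ∃ q : ℕ, q.Prime ∧ q ∣ Nat.card C ∧ q ≠ p := by
      by_contra hno
      push Not at hno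
      apply hcon
      exact ⟨_, Nat.eq_prime_pow_of_unique_prime_dvd hCpos (fun {d} hd hdd => hno d hd hdd)⟩
    have : Fact q.Prime := ⟨hq⟩
    obtain ⟨b, hb⟩ := exists_prime_orderOf_dvd_card' q hqd
    have hord : orderOf ((b : F.autGroup Q) : MulAut Q) = q := by
      rw [← hb, Subgroup.orderOf_coe, Subgroup.orderOf_coe]
    have hcop : (orderOf ((b : F.autGroup Q) : MulAut Q)).Coprime p := by
      rw [hord]
      exact (Nat.coprime_primes hq hp.out).2 hqp
    have hb1 : ((b : F.autGroup Q) : MulAut Q) = 1 :=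
      hDb _ (b : F.autGroup Q).2 hcop
        (eq_one_of_chain hS hQS hcop (hDG _ (b : F.autGroup Q).2) ((hC _).1 b.2))
    rw [hb1, orderOf_one] at hord
    exact hq.one_lt.ne hord
  have hRC : (R : Subgroup (F.autGroup Q)) ≤ C := by
    rw [hR]
    intro a ha
    obtain ⟨s, hs, he⟩ := (mem_autInducedBy_iff S Q _).1 (Subgroup.mem_subgroupOf.1 ha)
    refine (hC a).2 fun i x _ hx => ?_
    rw [he x]
    exact ucs_comm hx hs
  have hEq : C = (R : Subgroup (F.autGroup Q)) := R.is_maximal' hCp hRC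
  exact ⟨R, hEq ▸ hCn⟩

/-- **`S` is normal if the small cyclic fusion in the hyperfocal subgroup extends to `S`.** -/
theorem isNormal_of_small_extends [Finite S] {p : ℕ} [Fact p.Prime] (hS : IsPGroup p S)
    {F : FusionSystem S} (hF : F.IsSaturated p)
    (h : ∀ A B : Subgroup Ω, A ≤ (F.hyperfocalSubgroup p) → B ≤ (F.hyperfocalSubgroup p) →
      IsCyclic ↥A → (Nat.card ↥A = p ∨ Nat.card ↥A = 4) → IsCyclic ↥B →
      (Nat.card ↥B = p ∨ Nat.card ↥B = 4) → F.homSet A B ⊆ F.normalizerHom S A) :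
    F.IsNormal S := by
  refine Cfsg.Agent.H794.isNormal_of_p_closed hS hF fun P hP _ _ =>
    p_closed_of_extends hS hF ?_ (isFullyAutomized_of_isFullyNormalized hS hF hP)
  intro Q φ hφ x hxh hxe i hi
  by_cases hx1 : (x : Ω) = 1
  · have : x = 1 := Subtype.ext hx1
    rw [this, map_one]; exact Subgroup.one_mem _
  obtain ⟨χ, hχ, hχx⟩ := exists_homSet_cyclic hφ x
  have hφx : φ x ∈ F.hyperfocalSubgroup p := (apply_mem_hyp_iff hS hF Q φ hφ x).1 hxh
  have hφe : (φ x) ^ sexp p = 1 := by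
    rw [← map_pow]
    have : x ^ sexp p = 1 := Subtype.ext hxe
    rw [this, map_one]
  have hφ1 : φ x ≠ 1 := by
    intro h0
    apply hx1
    have : x = 1 := F.injective_of_mem hφ (by rw [h0, map_one])
    rw [this]; rfl
  obtain ⟨-, -, -, ψ, hψ, hψe, -⟩ := h _ _ (Subgroup.zpowers_le.2 hxh) (Subgroup.zpowers_le.2 hφx)
    (inferInstance) (card_zpowers_of_small hxe hx1) (inferInstance)
    (card_zpowers_of_small hφe hφ1) hχ
  have hle : S ≤ Subgroup.zpowers (x : Ω) ⊔ S := le_sup_right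
  have h1 := apply_mem_ucs (restrict_mem hψ hle) i hi
  have h2 := hψe ⟨x, Subgroup.mem_zpowers _⟩
  rw [hχx] at h2
  rw [← h2]
  exact h1

/-- **`F` is inner if the small cyclic fusion in the hyperfocal subgroup is inner.** -/
theorem inner_of_small_inner [Finite S] {p : ℕ} [hp : Fact p.Prime] (hS : IsPGroup p S)
    {F : FusionSystem S} (hF : F.IsSaturated p)
    (h : ∀ A B : Subgroup Ω, A ≤ (F.hyperfocalSubgroup p) → B ≤ (F.hyperfocalSubgroup p) →
      IsCyclic ↥A → (Nat.card ↥A = p ∨ Nat.card ↥A = 4) → IsCyclic ↥B →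
      (Nat.card ↥B = p ∨ Nat.card ↥B = 4) → F.homSet A B ⊆ (Cfsg.innerFusionSystem S).Hom A) :
    ∀ P : Subgroup Ω, F.Hom P = (Cfsg.innerFusionSystem S).Hom P := by
  have hsm : ∀ (Q : Subgroup Ω) (φ : Q →* Ω), φ ∈ F.Hom Q → ∀ x : Q,
      (x : Ω) ∈ F.hyperfocalSubgroup p → (x : Ω) ^ sexp p = 1 →
        ∃ s ∈ S, φ x = s * x * s⁻¹ := by
    intro Q φ hφ x hxh hxe
    by_cases hx1 : (x : Ω) = 1
    · have : x = 1 := Subtype.ext hx1
      refine ⟨1, S.one_mem, ?_⟩
      rw [this, map_one]; simp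
    obtain ⟨χ, hχ, hχx⟩ := exists_homSet_cyclic hφ x
    have hφx : φ x ∈ F.hyperfocalSubgroup p := (apply_mem_hyp_iff hS hF Q φ hφ x).1 hxh
    have hφe : (φ x) ^ sexp p = 1 := by
      rw [← map_pow]
      have : x ^ sexp p = 1 := Subtype.ext hxe
      rw [this, map_one]
    have hφ1 : φ x ≠ 1 := by
      intro h0
      apply hx1
      have : x = 1 := F.injective_of_mem hφ (by rw [h0, map_one])
      rw [this]; rfl
    obtain ⟨-, s, hs, he⟩ := h _ _ (Subgroup.zpowers_le.2 hxh) (Subgroup.zpowers_le.2 hφx)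
      (inferInstance) (card_zpowers_of_small hxe hx1) (inferInstance)
      (card_zpowers_of_small hφe hφ1) hχ
    refine ⟨s, hs, ?_⟩
    rw [← hχx]
    exact he _
  have hle : ∀ P : Subgroup Ω, F.Hom P ⊆ (Cfsg.innerFusionSystem S).Hom P := by
    refine le_of_autGroup_le hS hF (Cfsg.innerFusionSystem S) fun Q hQ _ => ?_
    have hQS := hQ.1
    have hfQ : Finite Q := finite_of_le hQS
    obtain ⟨D, hDh, hDG, hDe, hDb⟩ := exists_D hS hF hQS
    refine autGroup_le_of_coprime (isFullyAutomized_of_isFullyNormalized hS hF hQ) _ ?_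
      (autInducedBy_le_autGroup _ hQS)
    intro b hb ho
    have hb1 : b = 1 := by
      refine hDb b hb ho (eq_one_of_chain hS hQS ho (hDG b hb) fun i x hxD hx => ?_)
      obtain ⟨s, hs, he⟩ := hsm Q _ ((mem_autGroup_iff F hQS b).1 hb) x (hDh x hxD)
        (congrArg Subtype.val (hDe x hxD))
      have he' : ((b x : Q) : Ω) = s * x * s⁻¹ := he
      rw [he']
      exact ucs_comm hx hs
    rw [hb1]
    exact Subgroup.one_mem _
  intro P
  refine Set.Subset.antisymm (hle P) ?_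
  rintro φ ⟨hP, g, hg, he⟩
  exact mem_of_apply_eq (F.conj_mem hP hg) he

end Cfsg.Agent.H793
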